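import Groth.Agent.Fixpt.H572.TTr
import Groth.Agent.Fixpt.H902.Coef
import Groth.Agent.Fixpt.H657.Conc0

/-!
# The trace on `MX.HH` and change of coefficients

`TrL Λ c n : H^n(A, Λ) →ₗ[Λ] H^n(X, Λ)` for `c : A ⟶ X` finite flat; `coef_TrL`: compatible with the
change of coefficients `F → Λ`, `trace_TrL_res`: the trace of `c₂_* c₁^*` over `Λ` is the image of the
trace over `F`.
-/

set_option autoImplicit false
universe u
open CategoryTheory CategoryTheory.Limits AlgebraicGeometry Opposite Abelian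
open scoped Groth.Agent.Etcore.EtInst Groth.Agent.Sga4B.ModEtInst

namespace Groth.Agent.Fixpt.H572.MXTr

open Groth.Agent.Fixpt.H902 Groth.Agent.Fixpt.H902.MX Groth.Agent.Fixpt.H902.CoefBridge
  Groth.Agent.Fixpt.H902.CoefEt Groth.Agent.Fixpt.H902.Coef
  Groth.Agent.Sga4h.H915.DictConst

variable (Λ : Type (u + 1)) [CommRing Λ] {A X Y : Scheme.{u}} (c : A ⟶ X)

/-- The unit `Λ_X ⟶ c_* Λ_A`. -/
noncomputable def eps : cst Λ X Λ ⟶ (push Λ c).obj (cst Λ A Λ) :=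
  (adj Λ c).unit.app (cst Λ X Λ) ≫ (push Λ c).map (pullCst Λ c Λ).hom

instance preservesFiniteColimits_push [IsIntegralHom c] : PreservesFiniteColimits (push Λ c) :=
  H657.Conc0.preservesFiniteColimits_push (Λ := Λ) c

variable [IsFinite c] [Flat c] [LocallyOfFinitePresentation c]

/-- The trace `c_* Λ_A ⟶ Λ_X`. -/
noncomputable def trX : (push Λ c).obj (cst Λ A Λ) ⟶ cst Λ X Λ := TraceMod.trU Λ c

/-- The trace on cohomology. -/
noncomputable def TrL (n : ℕ) : HH Λ A Λ n →ₗ[Λ] HH Λ X Λ n :=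
  AbsRes.res.{u + 1, u + 1} Λ (push Λ c) (eps Λ c) (trX Λ c) n

theorem TrL_apply (n : ℕ) (a : HH Λ A Λ n) : TrL Λ c n a =
    (Ext.mk₀ (eps Λ c)).comp ((a.mapExactFunctor (push Λ c)).comp (Ext.mk₀ (trX Λ c))
      (add_zero n)) (zero_add n) := rfl

theorem Tr_toMH (n : ℕ) (a : HH Λ A Λ n) :
    Proj.Tr Λ c n (toMH Λ A n a) = toMH Λ X n (TrL Λ c n a) := rfl

theorem E_TrL (n : ℕ) (a : HH Λ A Λ n) :
    E Λ X n (TrL Λ c n a) = TrA.TrG (AddCommGrpCat.of Λ) c n (E Λ A n a) := by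
  rw [E_apply, ← Tr_toMH, Cmp.cmpC_Tr, E_apply]

section coef

variable (F : Type (u + 1)) [Field F] [Algebra F Λ]

theorem coef_TrL (n : ℕ) (a : HH F A F n) :
    coef X F Λ n (TrL F c n a) = TrL Λ c n (coef A F Λ n a) := by
  apply (E Λ X n).injective
  rw [E_coef, E_TrL, E_TrL, E_coef]
  exact (TrA.TrG_nat c (CoefAbs.up (algebraMap F Λ).toAddMonoidHom) n (E F A n a)).symm

/-- The traces of `c₂_* c₁^*` over `F` and `Λ` agree. -/
theorem trace_TrL_res [CompactSpace X] [QuasiSeparatedSpace X] (c₁ : A ⟶ X) (n : ℕ) :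
    LinearMap.trace Λ (HH Λ X Λ n) ((TrL Λ c n).comp (res c₁ Λ n)) =
      algebraMap F Λ (LinearMap.trace F (HH F X F n) ((TrL F c n).comp (res c₁ F n))) := by
  refine (bc X F Λ n).trace_eq ((TrL F c n).comp (res c₁ F n)) ((TrL Λ c n).comp (res c₁ Λ n))
    fun x => ?_
  change coef X F Λ n (TrL F c n (res c₁ F n x)) = TrL Λ c n (res c₁ Λ n (coef X F Λ n x))
  rw [coef_TrL, coef_res]

end coef

end Groth.Agent.Fixpt.H572.MXTr
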